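import Cfsg.Agent.H815.SixCentral

/-!
# Pure subgroups of order nine of `U_6(2)` (helper838)

`psu_pure` : the class of the element `u` of order three of `U_6(2)` with centralizer of order `46656`
has no elementary abelian subgroup of order nine all of whose elements belong to the class.
-/

set_option autoImplicit false

namespace Cfsg.Agent.H838.PsuPure

open Matrix Cfsg Cfsg.Agent.H815.SixCentral

/-! ### matrices with two eigenvalues -/

section Mat

variable {F : Type*} [Field F]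

/-- two eigenvalues with ratio `w` -/
def Quad (w : F) (M : Matrix (Fin 6) (Fin 6) F) : Prop :=
  ∃ a : F, a ≠ 0 ∧ (M - a • 1) * (M - (a * w) • 1) = 0

theorem Quad.conj {w : F} {M N N' : Matrix (Fin 6) (Fin 6) F} (h : Quad w M) (h1 : N' * N = 1) :
    Quad w (N' * M * N) := by
  obtain ⟨a, ha, h⟩ := h
  have h2 : N * N' = 1 := mul_eq_one_comm.1 h1
  refine ⟨a, ha, ?_⟩
  have e : ∀ c : F, N' * M * N - c • 1 = N' * (M - c • 1) * N := by
    intro c
    rw [mul_sub, sub_mul, Matrix.mul_smul, mul_one, Matrix.smul_mul, h1]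
  rw [e, e]
  calc N' * (M - a • 1) * N * (N' * (M - (a * w) • 1) * N)
      = N' * (M - a • 1) * (N * N') * (M - (a * w) • 1) * N := by simp only [mul_assoc]
    _ = N' * ((M - a • 1) * (M - (a * w) • 1)) * N := by rw [h2, mul_one]; simp only [mul_assoc]
    _ = 0 := by rw [h, mul_zero, zero_mul]

theorem Quad.smul {w c : F} {M : Matrix (Fin 6) (Fin 6) F} (h : Quad w M) (hc : c ≠ 0) :
    Quad w (c • M) := by
  obtain ⟨a, ha, h⟩ := h
  refine ⟨c * a, mul_ne_zero hc ha, ?_⟩
  rw [mul_assoc, ← smul_smul, ← smul_smul, ← smul_sub, ← smul_sub, Matrix.smul_mul, Matrix.mul_smul, h, smul_zero,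
    smul_zero]

/-- idempotent form -/
theorem Quad.form {w : F} (hw : w ≠ 1) {M : Matrix (Fin 6) (Fin 6) F} (h : Quad w M) :
    ∃ a : F, a ≠ 0 ∧ ∃ e : Matrix (Fin 6) (Fin 6) F, e * e = e ∧ M = a • (1 + (w - 1) • e) := by
  obtain ⟨a, ha, h⟩ := h
  have hw' : w - 1 ≠ 0 := sub_ne_zero.2 hw
  refine ⟨a, ha, (w - 1)⁻¹ • (a⁻¹ • M - 1), ?_, ?_⟩
  · have h1 : (a⁻¹ • M - 1) * (a⁻¹ • M - w • 1) = 0 := by
      have e1 : a⁻¹ • M - 1 = a⁻¹ • (M - a • 1) := by
        rw [smul_sub, smul_smul, inv_mul_cancel₀ ha, one_smul]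
      have e2 : a⁻¹ • M - w • 1 = a⁻¹ • (M - (a * w) • 1) := by
        rw [smul_sub, smul_smul, ← mul_assoc, inv_mul_cancel₀ ha, one_mul]
      rw [e1, e2, Matrix.smul_mul, Matrix.mul_smul, h, smul_zero, smul_zero]
    have h2 : (a⁻¹ • M - 1) * (a⁻¹ • M - 1) = (w - 1) • (a⁻¹ • M - 1) := by
      have e1 : a⁻¹ • M - w • 1 = (a⁻¹ • M - 1) - (w - 1) • 1 := by
        rw [sub_smul, one_smul]
        abel
      rw [e1, mul_sub, Matrix.mul_smul, mul_one, sub_eq_zero] at h1
      exact h1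
    rw [Matrix.smul_mul, Matrix.mul_smul, h2, smul_smul (w - 1)⁻¹ (w - 1), inv_mul_cancel₀ hw', one_smul]
  · rw [smul_smul, mul_inv_cancel₀ hw', one_smul, add_sub_cancel, smul_smul, mul_inv_cancel₀ ha, one_smul]

/-- the main computation -/
theorem quad_main {w : F} (hw3 : w ^ 3 = 1) (hw : w ≠ 1) {e f : Matrix (Fin 6) (Fin 6) F} (he : e * e = e)
    (hf : f * f = f) (hef : e * f = f * e)
    (h1 : Quad w ((1 + (w - 1) • e) * (1 + (w - 1) • f)))
    (h2 : Quad w ((1 + (w - 1) • e) * ((1 + (w - 1) • f) * (1 + (w - 1) • f)))) :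
    e = 0 ∨ e = 1 ∨ f = 0 ∨ f = 1 ∨ e = f ∨ f = 1 - e := by
  have hw0 : w ≠ 0 := by
    rintro rfl
    simp at hw3
  have hw2 : w ^ 2 ≠ 1 := by
    intro h
    apply hw
    calc w = w ^ 3 := by rw [pow_succ, h, one_mul]
      _ = 1 := hw3
  -- the four idempotents
  set P := 1 + (w - 1) • e with hP
  set Q := 1 + (w - 1) • f with hQ
  have hPe : P * e = w • e := by
    rw [hP, add_mul, one_mul, Matrix.smul_mul, he, sub_smul, one_smul]
    abel
  have hPe' : P * (1 - e) = 1 - e := by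
    rw [mul_sub, hPe, mul_one, hP, sub_smul, one_smul]
    abel
  have hQf : Q * f = w • f := by
    rw [hQ, add_mul, one_mul, Matrix.smul_mul, hf, sub_smul, one_smul]
    abel
  have hQf' : Q * (1 - f) = 1 - f := by
    rw [mul_sub, hQf, mul_one, hQ, sub_smul, one_smul]
    abel
  have hQe : Q * e = e * Q := by
    rw [hQ, add_mul, mul_add, one_mul, mul_one, Matrix.smul_mul, Matrix.mul_smul, hef]
  have hQe' : Q * (1 - e) = (1 - e) * Q := by
    rw [mul_sub, sub_mul, hQe, one_mul, mul_one]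
  -- eigenvalues
  have ev : ∀ (R x : Matrix (Fin 6) (Fin 6) F) (c a : F), R * x = c • x →
      (R - a • 1) * (R - (a * w) • 1) = 0 → x = 0 ∨ c = a ∨ c = a * w := by
    intro R x c a hx h
    by_cases hx0 : x = 0
    · exact Or.inl hx0
    right
    have h3 : ((R - a • 1) * (R - (a * w) • 1)) * x = ((c - a) * (c - a * w)) • x := by
      have e1 : ∀ b : F, (R - b • 1) * x = (c - b) • x := by
        intro b
        rw [sub_mul, hx, Matrix.smul_mul, one_mul, sub_smul]
      rw [mul_assoc, e1, Matrix.mul_smul, e1, smul_smul, mul_comm]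
    rw [h, zero_mul] at h3
    have h4 := (smul_eq_zero.1 h3.symm).resolve_right hx0
    rcases mul_eq_zero.1 h4 with h5 | h5
    · exact Or.inl (sub_eq_zero.1 h5)
    · exact Or.inr (sub_eq_zero.1 h5)
  -- three different eigenvalues are impossible
  have key : ∀ (R x y z : Matrix (Fin 6) (Fin 6) F), Quad w R → R * x = x → R * y = w • y → R * z = (w * w) • z →
      x = 0 ∨ y = 0 ∨ z = 0 := by
    intro R x y z hR hx hy hz
    obtain ⟨a, ha, hR⟩ := hR
    rcases ev R x 1 a (by rw [hx, one_smul]) hR with h | h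
    · exact Or.inl h
    rcases ev R y w a hy hR with h' | h'
    · exact Or.inr (Or.inl h')
    rcases ev R z (w * w) a hz hR with h'' | h''
    · exact Or.inr (Or.inr h'')
    exfalso
    rcases h with h | h
    · rw [← h] at h' h''
      rcases h'' with h'' | h''
      · exact hw2 ((pow_two w).trans h'')
      · rw [one_mul] at h''
        exact hw (mul_left_cancel₀ hw0 (h''.trans (mul_one w).symm))
    · -- `a w = 1`
      rw [← h] at h' h''
      rcases h' with h' | h'
      · rw [← h'] at h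
        exact hw2 (by rw [pow_two]; exact h.symm)
      · exact hw h'
  -- products
  have pr : ∀ (x y : Matrix (Fin 6) (Fin 6) F) (α β : F), P * x = α • x → Q * x = x * Q → Q * y = β • y →
      P * Q * (x * y) = (α * β) • (x * y) ∧ P * (Q * Q) * (x * y) = (α * (β * β)) • (x * y) := by
    intro x y α β hx hQx hy
    have e1 : Q * (x * y) = β • (x * y) := by
      rw [← mul_assoc, hQx, mul_assoc, hy, Matrix.mul_smul]
    have e2 : P * (x * y) = α • (x * y) := by
      rw [← mul_assoc, hx, Matrix.smul_mul]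
    constructor
    · rw [mul_assoc, e1, Matrix.mul_smul, e2, smul_smul, mul_comm]
    · rw [mul_assoc, mul_assoc, e1, Matrix.mul_smul, e1, Matrix.mul_smul, Matrix.mul_smul, e2, smul_smul, smul_smul]
      congr 1
      ring
  have hw1 : w * (w * w) = 1 := by rw [← hw3]; ring
  obtain ⟨a1, a2⟩ := pr (1 - e) (1 - f) 1 1 (by rw [hPe', one_smul]) hQe' (by rw [hQf', one_smul])
  obtain ⟨b1, b2⟩ := pr e (1 - f) w 1 hPe hQe (by rw [hQf', one_smul])
  obtain ⟨c1, c2⟩ := pr (1 - e) f 1 w (by rw [hPe', one_smul]) hQe' hQf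
  obtain ⟨d1, d2⟩ := pr e f w w hPe hQe hQf
  simp only [one_mul, mul_one, hw1, one_smul] at a1 a2 b1 b2 c1 c2 d1 d2
  have k1 := key (P * Q) ((1 - e) * (1 - f)) (e * (1 - f) + (1 - e) * f) (e * f) h1 a1
    (by rw [mul_add, b1, c1, smul_add]) d1
  have k2 := key (P * (Q * Q)) ((1 - e) * (1 - f) + e * f) (e * (1 - f)) ((1 - e) * f) h2
    (by rw [mul_add, a2, d2]) b2 c2
  have s1 : e * (1 - f) + e * f = e := by rw [mul_sub, mul_one, sub_add_cancel]
  have s2 : (1 - e) * f + e * f = f := by rw [sub_mul, one_mul, sub_add_cancel]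
  have s3 : (1 - e) * (1 - f) + e * (1 - f) = 1 - f := by rw [sub_mul, one_mul, sub_add_cancel]
  have s4 : (1 - e) * (1 - f) + (1 - e) * f = 1 - e := by rw [mul_sub, mul_one, sub_add_cancel]
  have t1 : e * (1 - e) = 0 := by rw [mul_sub, mul_one, he, sub_self]
  have t2 : (1 - e) * (1 - e) = 1 - e := by rw [mul_sub, mul_one, sub_mul, one_mul, he, sub_self, sub_zero]
  have t3 : (1 - e) * e = 0 := by rw [sub_mul, one_mul, he, sub_self]
  rcases k1 with k1 | k1 | k1
  · rcases k2 with k2 | k2 | k2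
    · rw [k1, zero_add] at k2
      rw [k2, add_zero] at s2
      rw [k1, zero_add] at s4
      exact Or.inr (Or.inr (Or.inr (Or.inr (Or.inr (s2.symm.trans s4)))))
    · rw [k1, k2, add_zero] at s3
      exact Or.inr (Or.inr (Or.inr (Or.inl (sub_eq_zero.1 s3.symm).symm)))
    · rw [k1, k2, add_zero] at s4
      exact Or.inr (Or.inl (sub_eq_zero.1 s4.symm).symm)
  · have r1 := congrArg (e * ·) k1
    have r2 := congrArg ((1 - e) * ·) k1
    simp only [mul_add, mul_zero, ← mul_assoc, he, t1, t2, t3, zero_mul, add_zero, zero_add] at r1 r2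
    rw [r1, zero_add] at s1
    rw [r2, zero_add] at s2
    exact Or.inr (Or.inr (Or.inr (Or.inr (Or.inl (s1.symm.trans s2)))))
  · rcases k2 with k2 | k2 | k2
    · rw [k1, add_zero] at k2
      rw [k2, zero_add] at s4
      rw [k1, add_zero] at s2
      right; right; right; right; right
      exact s2.symm.trans s4
    · rw [k1, k2, add_zero] at s1
      exact Or.inl s1.symm
    · rw [k1, k2, add_zero] at s2
      exact Or.inr (Or.inr (Or.inl s2.symm))

theorem mul_form (α β : F) (x y : Matrix (Fin 6) (Fin 6) F) :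
    (1 + α • x) * (1 + β • y) = 1 + α • x + β • y + (α * β) • (x * y) := by
  rw [mul_add, mul_one, Matrix.mul_smul, add_mul, Matrix.smul_mul, one_mul, smul_add, smul_smul, mul_comm β α]
  abel

/-- twisted commutation forces scalars -/
theorem twist {w : F} (hw3 : w ^ 3 = 1) (hw : w ≠ 1) {f P P' : Matrix (Fin 6) (Fin 6) F} (hf : f * f = f)
    (hP : P * P' = 1) {c : F} (hc0 : c ≠ 0) (hc : c ≠ 1)
    (h : P * (1 + (w - 1) • f) = c • ((1 + (w - 1) • f) * P)) : ∃ s : F, 1 + (w - 1) • f = s • 1 := by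
  have hw1 : 1 + w ≠ 0 := by
    intro h0
    have h1 : w = -1 := by
      rw [add_comm] at h0
      exact eq_neg_of_add_eq_zero_left h0
    rw [h1] at hw3 hw
    apply hw
    calc (-1 : F) = (-1) ^ 3 := by ring
      _ = 1 := hw3
  set Q := 1 + (w - 1) • f with hQ
  have h1 : Q * Q = (1 + w) • Q - w • 1 := by
    rw [hQ, mul_form, hf]
    have e1 : (1 + w) • ((1 : Matrix (Fin 6) (Fin 6) F) + (w - 1) • f) - w • 1 = 1 + ((1 + w) * (w - 1)) • f := by
      rw [smul_add, smul_smul, add_smul, one_smul]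
      abel
    rw [e1, add_assoc, add_assoc, ← add_smul, ← add_smul]
    congr 2
    ring
  have h2 : c • (c • (Q * Q)) = c • ((1 + w) • Q) - w • 1 := by
    have h3 : (c • (c • (Q * Q))) * P = (c • ((1 + w) • Q) - w • 1) * P := by
      have e1 : (c • (c • (Q * Q))) * P = P * (Q * Q) := by
        rw [← mul_assoc, h, Matrix.smul_mul, Matrix.smul_mul, Matrix.smul_mul, mul_assoc Q P Q, h, Matrix.mul_smul,
          mul_assoc]
      rw [e1, h1, mul_sub, sub_mul, Matrix.mul_smul, h, Matrix.mul_smul, mul_one, Matrix.smul_mul, Matrix.smul_mul,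
        Matrix.smul_mul, one_mul, smul_comm]
    have h4 := congrArg (· * P') h3
    simp only [mul_assoc _ P P', hP, mul_one] at h4
    exact h4
  rw [h1] at h2
  have h5 : (c * (c - 1) * (1 + w)) • Q = ((c * c - 1) * w) • 1 := by
    have e1 : (c * (c - 1) * (1 + w)) • Q = c • (c • ((1 + w) • Q - w • 1)) - c • ((1 + w) • Q) + (c * c * w) • 1 := by
      simp only [smul_sub, smul_smul]
      rw [show c * (c - 1) * (1 + w) = c * (c * (1 + w)) - c * (1 + w) by ring, sub_smul,
        show c * c * w = c * (c * w) by ring]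
      abel
    rw [e1, h2, show (c * c - 1) * w = c * c * w - w by ring, sub_smul]
    abel
  have h6 : c * (c - 1) * (1 + w) ≠ 0 := mul_ne_zero (mul_ne_zero hc0 (sub_ne_zero.2 hc)) hw1
  refine ⟨(c * (c - 1) * (1 + w))⁻¹ * ((c * c - 1) * w), ?_⟩
  rw [← smul_smul, ← h5, smul_smul, inv_mul_cancel₀ h6, one_smul]

end Mat

/-! ### the group -/

section Grp

variable {F : Type*} [Field F] {Γ : Type*} [Group Γ]

/-- the abstract statement -/
theorem pure_abs {ι : Γ →* Matrix (Fin 6) (Fin 6) F} (hinj : Function.Injective ι)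
    (hcen : ∀ g ∈ Subgroup.center Γ, ∃ c : F, ι g = c • 1) {w : F} (hw3 : w ^ 3 = 1) (hw : w ≠ 1)
    {z y : Γ ⧸ Subgroup.center Γ} (hz : z ≠ 1) (hy : y ≠ 1) (hzy : z * y = y * z)
    (h : ∀ x, (x = z ∨ x = y ∨ x = z * y ∨ x = z * (y * y)) → x = 1 ∨
      ∃ g : Γ, (g : Γ ⧸ Subgroup.center Γ) = x ∧ Quad w (ι g)) : y = z ∨ y = z⁻¹ := by
  have hinv : ∀ g : Γ, ι g * ι g⁻¹ = 1 := fun g => by rw [← map_mul, mul_inv_cancel, map_one]
  have hne : ∀ g : Γ, ι g ≠ 0 := fun g h0 => by
    have h1 := hinv g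
    rw [h0, zero_mul] at h1
    exact zero_ne_one h1
  have hs : ∀ g g' : Γ, (g : Γ ⧸ Subgroup.center Γ) = g' → ∃ c : F, c ≠ 0 ∧ ι g = c • ι g' := by
    intro g g' hg
    obtain ⟨c, hc⟩ := hcen _ (QuotientGroup.eq.1 hg.symm)
    rw [map_mul] at hc
    refine ⟨c, ?_, ?_⟩
    · rintro rfl
      rw [zero_smul, ← map_mul] at hc
      exact hne _ hc
    · have h1 : ι g' * (ι g'⁻¹ * ι g) = ι g := by rw [← mul_assoc, hinv, one_mul]
      rw [← h1, hc, Matrix.mul_smul, mul_one]
  have hs' : ∀ (g g' : Γ) (c : F), ι g = c • ι g' → (g : Γ ⧸ Subgroup.center Γ) = g' := by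
    intro g g' c hg
    symm
    rw [QuotientGroup.eq, Subgroup.mem_center_iff]
    intro k
    apply hinj
    have h1 : ι (g'⁻¹ * g) = c • 1 := by
      rw [map_mul, hg, Matrix.mul_smul, ← map_mul, inv_mul_cancel, map_one]
    rw [map_mul, map_mul ι _ k, h1, Matrix.mul_smul, Matrix.smul_mul, mul_one, one_mul]
  have h1' : ∀ (g : Γ) (c : F), ι g = c • 1 → (g : Γ ⧸ Subgroup.center Γ) = 1 := by
    intro g c hg
    exact hs' g 1 c (by rw [map_one, hg])
  have hw0 : w ≠ 0 := by
    rintro rfl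
    simp at hw3
  by_cases c1 : z * y = 1
  · exact Or.inr (eq_inv_of_mul_eq_one_right c1)
  obtain ⟨Z, hZ, qZ⟩ := (h z (Or.inl rfl)).resolve_left hz
  obtain ⟨Y, hY, qY⟩ := (h y (Or.inr (Or.inl rfl))).resolve_left hy
  obtain ⟨a, ha, e, he, hZe⟩ := qZ.form hw
  obtain ⟨b, hb, f, hf, hYf⟩ := qY.form hw
  by_cases c2 : z * (y * y) = 1
  · left
    have h3 : y * (y * y) = 1 := by
      rw [← hY]
      apply h1' (Y * (Y * Y)) (b * (b * b))
      rw [map_mul, map_mul, hYf]
      have e1 : ∀ α β : F, (1 + α • f) * (1 + β • f) = 1 + (α + β + α * β) • f := by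
        intro α β
        rw [mul_form, hf, add_assoc, add_assoc, ← add_smul, ← add_smul, ← add_assoc]
      rw [Matrix.smul_mul, Matrix.mul_smul, Matrix.smul_mul, Matrix.mul_smul, Matrix.mul_smul, e1, e1, smul_smul, smul_smul]
      have e2 : (w - 1 + (w - 1 + (w - 1) + (w - 1) * (w - 1)) +
        (w - 1) * (w - 1 + (w - 1) + (w - 1) * (w - 1))) = 0 := by
        have : (w - 1 + (w - 1 + (w - 1) + (w - 1) * (w - 1)) +
          (w - 1) * (w - 1 + (w - 1) + (w - 1) * (w - 1))) = w ^ 3 - 1 := by ring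
        rw [this, hw3, sub_self]
      rw [e2, zero_smul, add_zero, mul_assoc]
    exact mul_right_cancel (h3.trans c2.symm)
  obtain ⟨G, hG, qG⟩ := (h _ (Or.inr (Or.inr (Or.inl rfl)))).resolve_left c1
  obtain ⟨H, hH, qH⟩ := (h _ (Or.inr (Or.inr (Or.inr rfl)))).resolve_left c2
  -- commutation
  have hab : a * b ≠ 0 := mul_ne_zero ha hb
  have hZY : ι (Z * Y) = (a * b) • ((1 + (w - 1) • e) * (1 + (w - 1) • f)) := by
    rw [map_mul, hZe, hYf, Matrix.smul_mul, Matrix.mul_smul, smul_smul]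
  have hYZ : ι (Y * Z) = (a * b) • ((1 + (w - 1) • f) * (1 + (w - 1) • e)) := by
    rw [map_mul, hZe, hYf, Matrix.smul_mul, Matrix.mul_smul, smul_smul, mul_comm b a]
  have hcomm : (1 + (w - 1) • e) * (1 + (w - 1) • f) = (1 + (w - 1) • f) * (1 + (w - 1) • e) := by
    obtain ⟨c, hc0, hc⟩ := hs (Z * Y) (Y * Z) (by
      rw [QuotientGroup.mk_mul, QuotientGroup.mk_mul, hZ, hY, hzy])
    rw [hZY, hYZ, smul_comm] at hc
    have hc' := smul_right_injective _ hab hc
    by_cases hc1 : c = 1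
    · rw [hc1, one_smul] at hc'
      exact hc'
    exfalso
    obtain ⟨s, hs⟩ := twist hw3 hw hf (P := 1 + (w - 1) • e) (P' := a • ι Z⁻¹) (by
      have := hinv Z
      rw [hZe, Matrix.smul_mul] at this
      rw [Matrix.mul_smul, this]) hc0 hc1 hc'
    apply hy
    rw [← hY]
    apply h1' Y (b * s)
    rw [hYf, hs, smul_smul]
  have hef : e * f = f * e := by
    rw [mul_form, mul_form, add_right_comm 1 ((w - 1) • f)] at hcomm
    have h2 := add_left_cancel hcomm
    exact smul_right_injective _ (mul_ne_zero (sub_ne_zero.2 hw) (sub_ne_zero.2 hw)) h2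
  have q1 : Quad w ((1 + (w - 1) • e) * (1 + (w - 1) • f)) := by
    obtain ⟨c, hc0, hc⟩ := hs (Z * Y) G (by rw [hG, QuotientGroup.mk_mul, hZ, hY])
    rw [hZY] at hc
    have h2 := (qG.smul hc0).smul (inv_ne_zero hab)
    rw [← hc, smul_smul, inv_mul_cancel₀ hab, one_smul] at h2
    exact h2
  have q2 : Quad w ((1 + (w - 1) • e) * ((1 + (w - 1) • f) * (1 + (w - 1) • f))) := by
    obtain ⟨c, hc0, hc⟩ := hs (Z * (Y * Y)) H (by
      rw [hH, QuotientGroup.mk_mul, QuotientGroup.mk_mul, hZ, hY])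
    have e1 : ι (Z * (Y * Y)) = (a * (b * b)) • ((1 + (w - 1) • e) * ((1 + (w - 1) • f) * (1 + (w - 1) • f))) := by
      rw [map_mul, map_mul, hZe, hYf, Matrix.smul_mul, Matrix.smul_mul, Matrix.mul_smul, Matrix.mul_smul,
        Matrix.mul_smul, smul_smul, smul_smul]
      congr 1
      ring
    have hab' : a * (b * b) ≠ 0 := mul_ne_zero ha (mul_ne_zero hb hb)
    rw [e1] at hc
    have h2 := (qH.smul hc0).smul (inv_ne_zero hab')
    rw [← hc, smul_smul, inv_mul_cancel₀ hab', one_smul] at h2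
    exact h2
  rcases quad_main hw3 hw he hf hef q1 q2 with k | k | k | k | k | k
  · exact absurd (hZ.symm.trans (h1' Z a (by rw [hZe, k, smul_zero, add_zero]))) hz
  · refine absurd (hZ.symm.trans (h1' Z (a * w) ?_)) hz
    rw [hZe, k, sub_smul, one_smul, add_sub_cancel, smul_smul]
  · exact absurd (hY.symm.trans (h1' Y b (by rw [hYf, k, smul_zero, add_zero]))) hy
  · refine absurd (hY.symm.trans (h1' Y (b * w) ?_)) hy
    rw [hYf, k, sub_smul, one_smul, add_sub_cancel, smul_smul]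
  · left
    rw [← hY, ← hZ]
    apply hs' Y Z (b * a⁻¹)
    rw [hYf, hZe, k, smul_smul, mul_assoc, inv_mul_cancel₀ ha, mul_one]
  · exfalso
    apply c1
    rw [← hZ, ← hY, ← QuotientGroup.mk_mul]
    apply h1' (Z * Y) (a * b * w)
    rw [hZY, k]
    have e1 : (1 + (w - 1) • e) * (1 + (w - 1) • (1 - e)) = w • 1 := by
      have e0 : e * (1 - e) = 0 := by rw [Matrix.mul_sub, he, mul_one, sub_self]
      rw [mul_form, e0, smul_zero, add_zero, smul_sub, sub_smul w 1 (1 : Matrix (Fin 6) (Fin 6) F), one_smul]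
      abel
    rw [e1, smul_smul]

end Grp

/-! ### the element -/

/-- the element together with its lift (copied from `SixCentral`) -/
theorem exists_elt {F : Type*} [Field F] {Γ U D : Type*} [Group Γ] [Group U] [CommGroup D] [Finite Γ] [Finite U]
    {ι : Γ →* Matrix (Fin 6) (Fin 6) F} {m : U →* Matrix (Fin 3) (Fin 3) F} {d : U →* D} (X : Ctx ι m d)
    {w : F} (hw3 : w ^ 3 = 1) (hw : w ≠ 1) :
    ∃ z : Γ, ι z = blk 1 (w • 1) ∧ orderOf (z : Γ ⧸ Subgroup.center Γ) = 3 ∧
      Nat.card (Subgroup.center Γ) * Nat.card (Subgroup.centralizer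
        ({(z : Γ ⧸ Subgroup.center Γ)} : Set (Γ ⧸ Subgroup.center Γ))) =
        Nat.card D * Nat.card d.ker ^ 2 := by
  classical
  obtain ⟨u, hu, hu1⟩ := X.sc w hw3
  obtain ⟨z, hz⟩ := X.mkb 1 u (by rw [map_one, hu1, mul_one])
  rw [map_one, hu] at hz
  -- no scalar multiples
  have hns : ∀ c : F, blk (1 : Matrix (Fin 3) (Fin 3) F) (w • 1) ≠ c • 1 := by
    intro c h
    rw [← blk_one, blk_smul] at h
    obtain ⟨h1, h2⟩ := blk_inj h
    have h3 := congrFun (congrFun h1 0) 0
    have h4 := congrFun (congrFun h2 0) 0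
    simp only [Matrix.one_apply_eq, Matrix.smul_apply, smul_eq_mul, mul_one] at h3 h4
    exact hw (h4.trans h3.symm)
  have hcom : ∀ g : Γ, g * z * g⁻¹ * z⁻¹ ∈ Subgroup.center Γ → g * z = z * g := by
    intro g hg
    obtain ⟨c, hc⟩ := X.cen _ hg
    -- `g z = c z g`
    have h1 : ι g * ι z = c • (ι z * ι g) := by
      rw [← map_mul, ← map_mul]
      have h2 : g * z = (g * z * g⁻¹ * z⁻¹) * (z * g) := by group
      rw [h2, map_mul, hc, smul_mul, one_mul]
    -- the eigenvalues
    have h3 : (ι z - 1) * (ι z - w • 1) = 0 := by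
      rw [hz, ← blk_one, blk_smul, blk_sub, blk_sub, blk_mul]
      simp only [sub_self, zero_mul, mul_zero]
      exact blk_zero
    have h4 : (c • ι z - 1) * (c • ι z - w • 1) = 0 := by
      have h5 : ((c • ι z - 1) * (c • ι z - w • 1)) * ι g = 0 := by
        have e1 : (c • ι z - w • 1) * ι g = ι g * (ι z - w • 1) := by
          rw [sub_mul, mul_sub, smul_mul, ← h1, smul_mul, one_mul, Matrix.mul_smul, mul_one]
        have e2 : (c • ι z - 1) * ι g = ι g * (ι z - 1) := by
          rw [sub_mul, mul_sub, smul_mul, ← h1, one_mul, mul_one]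
        rw [mul_assoc, e1, ← mul_assoc, e2, mul_assoc, h3, mul_zero]
      have h6 : ι g * ι g⁻¹ = 1 := by rw [← map_mul, mul_inv_cancel, map_one]
      have h7 := congrArg (· * ι g⁻¹) h5
      simp only [zero_mul] at h7
      rwa [mul_assoc, h6, mul_one] at h7
    rw [hz, ← blk_one, blk_smul, blk_smul, blk_sub, blk_sub, blk_mul] at h4
    have h5 : blk (0 : Matrix (Fin 3) (Fin 3) F) 0 = 0 := blk_zero
    rw [← h5] at h4
    obtain ⟨h6, h7⟩ := blk_inj h4
    have h8 := congrFun (congrFun h6 0) 0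
    have h9 := congrFun (congrFun h7 0) 0
    have e : ∀ a b : F, ((a • (1 : Matrix (Fin 3) (Fin 3) F) - 1) * (a • 1 - b • 1)) = ((a - 1) * (a - b)) • 1 := by
      intro a b
      have e1 : (a • (1 : Matrix (Fin 3) (Fin 3) F) - 1) = (a - 1) • 1 := by rw [sub_smul, one_smul]
      rw [e1, ← sub_smul, smul_mul, Matrix.mul_smul, mul_one, smul_smul]
    rw [e, Matrix.smul_apply, Matrix.one_apply_eq, Matrix.zero_apply, smul_eq_mul, mul_one] at h8
    rw [smul_smul, e, Matrix.smul_apply, Matrix.one_apply_eq, Matrix.zero_apply, smul_eq_mul, mul_one] at h9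
    have hc1 : c = 1 := by
      rcases mul_eq_zero.1 h8 with h | h
      · exact sub_eq_zero.1 h
      · have hcw := sub_eq_zero.1 h
        rw [hcw] at h9
        exfalso
        have hw0 : w ≠ 0 := by
          rintro rfl
          simp at hw3
        rcases mul_eq_zero.1 h9 with h | h
        · apply hw
          have h2 : w * w = 1 := sub_eq_zero.1 h
          calc w = w * (w * w) := by rw [h2, mul_one]
            _ = w ^ 3 := by ring
            _ = 1 := hw3
        · apply hw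
          have h2 : w * w = w := sub_eq_zero.1 h
          exact mul_left_cancel₀ hw0 (h2.trans (mul_one w).symm)
    apply X.inj
    rw [map_mul, map_mul, h1, hc1, one_smul]
  have hzc : z ∉ Subgroup.center Γ := by
    intro h
    obtain ⟨c, hc⟩ := X.cen z h
    rw [hz] at hc
    exact hns c hc
  refine ⟨z, hz, ?_, ?_⟩
  · refine orderOf_eq_prime ?_ ?_
    · rw [← QuotientGroup.mk_pow]
      have h1 : z ^ 3 = 1 := by
        apply X.inj
        rw [map_pow, map_one, hz, pow_succ, pow_two, blk_mul, blk_mul, ← blk_one]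
        congr 1
        · simp
        · have : w * (w * w) = 1 := by rw [← hw3]; ring
          simp only [smul_mul, one_mul, smul_smul, mul_assoc, this, one_smul]
      rw [h1, QuotientGroup.mk_one]
    · intro h
      exact hzc ((QuotientGroup.eq_one_iff z).1 h)
  · rw [card_cent_mk z hcom, ← card_pairs d X.dsurj]
    symm
    -- the bijection
    have hf : ∀ p : {p : U × U // d p.1 * d p.2 = 1}, ∃ g : Subgroup.centralizer ({z} : Set Γ),
        ι g = blk (m p.1.1) (m p.1.2) := by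
      intro p
      obtain ⟨g, hg⟩ := X.mkb p.1.1 p.1.2 p.2
      refine ⟨⟨g, ?_⟩, hg⟩
      rw [Subgroup.mem_centralizer_singleton_iff]
      apply X.inj
      rw [map_mul, map_mul, hz, hg, blk_mul, blk_mul, mul_one, one_mul, Matrix.mul_smul, mul_one, smul_mul, one_mul]
    choose f hf using hf
    refine Nat.card_congr (Equiv.ofBijective f ⟨?_, ?_⟩)
    · intro p p' h
      have h1 := hf p
      rw [h, hf p'] at h1
      obtain ⟨h2, h3⟩ := blk_inj h1
      apply Subtype.ext
      exact Prod.ext (X.minj h2.symm) (X.minj h3.symm)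
    · rintro ⟨g, hg⟩
      rw [Subgroup.mem_centralizer_singleton_iff] at hg
      have h1 : ι g * blk 1 (w • 1) = blk 1 (w • 1) * ι g := by rw [← hz, ← map_mul, ← map_mul, hg]
      obtain ⟨A, B, hAB⟩ := exists_blk hw h1
      obtain ⟨A', B', hA, hB, hd⟩ := X.ex g A B hAB
      refine ⟨⟨(A', B'), hd⟩, ?_⟩
      apply Subtype.ext
      apply X.inj
      rw [hf, hA, hB, hAB]


section Final

variable {F : Type*} [Field F] [Fintype F]

/-- **The pure subgroups of order nine of `U_6(2)`.** -/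
theorem psu_pure (hF : Fintype.card F = 2 ^ 2) : ∃ u : PSU 6 F 2, orderOf u = 3 ∧
    46656 ∣ Nat.card (Subgroup.centralizer ({u} : Set (PSU 6 F 2))) ∧
    ∀ z y : PSU 6 F 2, z ≠ 1 → y ≠ 1 → z * y = y * z →
      (∀ x, (x = z ∨ x = y ∨ x = z * y ∨ x = z * (y * y)) → x = 1 ∨ ∃ g, g * x * g⁻¹ = u ∨ g * x * g⁻¹ = u⁻¹) →
      y = z ∨ y = z⁻¹ := by
  obtain ⟨w, hw3, hw⟩ := exists_cube_root (F := F) (by rw [hF]; norm_num)
  obtain ⟨u, hu, hu3, hc⟩ := exists_elt (ctx_psu hF (by norm_num)) hw3 hw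
  set ι : SU 6 F 2 →* Matrix (Fin 6) (Fin 6) F := (slToMat 6 F).comp (SU 6 F 2).subtype with hι
  refine ⟨QuotientGroup.mk u, hu3, ?_, ?_⟩
  · have h1 := S0278.result hF 6 (by norm_num)
    have h2 := S0280.result hF 6 (by norm_num)
    have h3 := Subgroup.card_eq_card_quotient_mul_card_subgroup (Subgroup.center (SU 6 F 2))
    have h4 : Nat.card (Subgroup.center (SU 6 F 2)) = Nat.gcd 6 (2 + 1) := by
      have hp : 0 < (2 + 1) * Nat.card (PSU 6 F 2) := Nat.mul_pos (by omega) Nat.card_pos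
      apply Nat.eq_of_mul_eq_mul_right hp
      rw [h2, ← h1, h3]
      ring
    have h5 : Nat.card (SU 3 F 2) = 2 ^ 3 * (2 ^ 2 - 1) * (2 ^ 3 + 1) := by
      have h6 := S0278.result hF 3 (by norm_num)
      simp [Finset.prod_range_succ, Nat.even_iff] at h6
      apply Nat.eq_of_mul_eq_mul_left (show 0 < 3 by omega)
      rw [h6]
      norm_num
    rw [h4, card_ker_detHom, h5, ClassicalGeometry.GUBasic.card_rootsOfUnity_eq hF] at hc
    apply Dvd.intro 1
    apply Nat.eq_of_mul_eq_mul_left (show 0 < 3 by omega)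
    rw [mul_one]
    refine Eq.trans ?_ hc.symm
    norm_num
  · intro z y hz hy hzy h
    have hcen := (ctx_psu hF (by norm_num)).cen
    refine pure_abs (ι := ι) (ctx_psu hF (by norm_num)).inj hcen hw3 hw hz hy hzy ?_
    intro x hx
    rcases h x hx with h1 | ⟨g, h1⟩
    · exact Or.inl h1
    right
    have hinv : ∀ g : SU 6 F 2, ι g⁻¹ * ι g = 1 := fun g => by rw [← map_mul, inv_mul_cancel, map_one]
    have qu : Quad w (ι u) := by
      refine ⟨1, one_ne_zero, ?_⟩
      rw [hu, ← blk_one, one_smul, one_mul, blk_smul, blk_sub, blk_sub, blk_mul]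
      simp only [sub_self, zero_mul, mul_zero]
      exact blk_zero
    have qu' : Quad w (ι u⁻¹) := by
      have hw0 : w ≠ 0 := by
        rintro rfl
        simp at hw3
      refine ⟨w⁻¹, inv_ne_zero hw0, ?_⟩
      have h2 : ι u⁻¹ = blk 1 (w⁻¹ • 1) := by
        have h3 : ι u * blk 1 (w⁻¹ • 1) = 1 := by
          rw [hu, blk_mul, one_mul, Matrix.mul_smul, mul_one, smul_smul, inv_mul_cancel₀ hw0, one_smul, blk_one]
        have h4 := congrArg (ι u⁻¹ * ·) h3
        simp only [← mul_assoc, hinv, one_mul, mul_one] at h4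
        exact h4.symm
      rw [h2, inv_mul_cancel₀ hw0, ← blk_one, one_smul, blk_smul, blk_sub, blk_sub, blk_mul]
      simp only [sub_self, zero_mul, mul_zero]
      exact blk_zero
    obtain ⟨k, rfl⟩ := QuotientGroup.mk_surjective g
    rcases h1 with h1 | h1
    · refine ⟨k⁻¹ * u * k, ?_, ?_⟩
      · rw [QuotientGroup.mk_mul, QuotientGroup.mk_mul, QuotientGroup.mk_inv, ← h1]
        group
      · rw [map_mul, map_mul]
        exact qu.conj (hinv k)
    · refine ⟨k⁻¹ * u⁻¹ * k, ?_, ?_⟩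
      · rw [QuotientGroup.mk_mul, QuotientGroup.mk_mul, QuotientGroup.mk_inv, QuotientGroup.mk_inv, ← h1]
        group
      · rw [map_mul, map_mul]
        exact qu'.conj (hinv k)

end Final

end Cfsg.Agent.H838.PsuPure
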